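import Mathlib
import Cfsg.Agent.Lib.H14.QdInv

/-!
If `Qd(p)` is a section of `G` then for some `p`-subgroup `Q` the group `N(Q)/C(Q)` has a section `SL₂(p)`.
-/

set_option autoImplicit false

namespace Cfsg.Agent.H08.CR

open Cfsg Matrix MatrixGroups
open Cfsg.Agent.H12.Qd

/-- A homomorphism on a supplement that is trivial on the intersection with a normal subgroup
extends over the whole group, trivially on the normal subgroup. -/
theorem exists_ext_hom {X S : Type*} [Group X] [Group S] (H₀ C : Subgroup X) [hC : C.Normal]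
    (hs : H₀ ⊔ C = ⊤) (θ : H₀ →* S) (hθ : ∀ (x : X) (hx : x ∈ H₀), x ∈ C → θ ⟨x, hx⟩ = 1) :
    ∃ Θ : X →* S, (∀ x : H₀, Θ x = θ x) ∧ ∀ c ∈ C, Θ c = 1 := by
  classical
  have hdec : ∀ x : X, ∃ n : H₀, (n : X)⁻¹ * x ∈ C := by
    intro x
    have hx : x ∈ H₀ ⊔ C := by rw [hs]; trivial
    obtain ⟨n, hn, c, hc, rfl⟩ := Subgroup.mem_sup_of_normal_right.mp hx
    refine ⟨⟨n, hn⟩, ?_⟩
    simpa using hc
  choose f hf using hdec
  have huniq : ∀ (x : X) (n : H₀), (n : X)⁻¹ * x ∈ C → θ (f x) = θ n := by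
    intro x n hn
    have h1 : ((f x)⁻¹ * n : H₀) ∈ (⊤ : Subgroup H₀) := trivial
    have h2 : (((f x)⁻¹ * n : H₀) : X) ∈ C := by
      have h3 : (((f x)⁻¹ * n : H₀) : X) = ((f x : X)⁻¹ * x) * ((n : X)⁻¹ * x)⁻¹ := by
        push_cast
        group
      rw [h3]
      exact C.mul_mem (hf x) (C.inv_mem hn)
    have h4 := hθ _ ((f x)⁻¹ * n : H₀).2 h2
    have h5 : θ ((f x)⁻¹ * n) = 1 := h4
    rw [map_mul, map_inv, inv_mul_eq_one] at h5
    exact h5
  refine ⟨MonoidHom.mk' (fun x => θ (f x)) ?_, ?_, ?_⟩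
  · intro x y
    have h1 : ((f x * f y : H₀) : X)⁻¹ * (x * y) ∈ C := by
      have h2 : ((f x * f y : H₀) : X)⁻¹ * (x * y)
          = (f y : X)⁻¹ * (((f x : X)⁻¹ * x) * (f y : X)) * ((f y : X)⁻¹ * y) := by
        push_cast
        group
      rw [h2]
      refine C.mul_mem ?_ (hf y)
      have := hC.conj_mem _ (hf x) (f y : X)⁻¹
      simpa [mul_assoc] using this
    have h3 := huniq (x * y) (f x * f y) h1
    change θ (f (x * y)) = θ (f x) * θ (f y)
    rw [h3, map_mul]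
  · intro x
    change θ (f (x : X)) = θ x
    exact huniq _ x (by simp [C.one_mem])
  · intro c hc
    change θ (f c) = 1
    have h1 := huniq c 1 (by simpa using hc)
    rw [h1, map_one]

variable {G : Type*} [Group G] [Finite G] {p : ℕ} [Fact p.Prime]

/-- A `Qd(p)` section gives an `SL₂(p)` section of `N(Q)/C(Q)`. -/
theorem exists_local_section (h : Involves ↥(Cfsg.qdOver (ZMod p)) G) :
    ∃ Q : Subgroup G, IsPGroup p ↥Q ∧ ∃ (H K : Subgroup G) (_ : (K.subgroupOf H).Normal),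
      Subgroup.centralizer (Q : Set G) ≤ K ∧ K ≤ H ∧ H ≤ Subgroup.normalizer (Q : Set G) ∧
      Nonempty ((↥H ⧸ K.subgroupOf H) ≃* Matrix.SpecialLinearGroup (Fin 2) (ZMod p)) := by
  classical
  have hp : p.Prime := Fact.out
  obtain ⟨K₀, θ, hθ⟩ := H09.exists_of_involves h
  let Φ : K₀ →* SL(2, ZMod p) := (block : Cfsg.qdOver (ZMod p) →* SL(2, ZMod p)).comp θ
  have hΦ : Function.Surjective Φ := block_surjective.comp hθ
  let V₁ : Subgroup K₀ := Φ.ker
  haveI hV₁n : V₁.Normal := MonoidHom.normal_ker Φ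
  haveI : Finite K₀ := inferInstance
  obtain ⟨Q₁⟩ : Nonempty (Sylow p V₁) := inferInstance
  let Q₂ : Subgroup K₀ := (Q₁ : Subgroup V₁).map V₁.subtype
  let Q : Subgroup G := Q₂.map K₀.subtype
  have hQ₂p : IsPGroup p Q₂ := Q₁.isPGroup'.map _
  have hQp : IsPGroup p Q := hQ₂p.map _
  -- the image of `Q₂` is all of the kernel of `block`
  have hcover : ∀ v : Fin 2 → ZMod p, ∃ q ∈ Q₂, θ q = transl v := by
    intro v
    let ker₀ : Subgroup (Cfsg.qdOver (ZMod p)) := (block : Cfsg.qdOver (ZMod p) →* SL(2, ZMod p)).ker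
    have hker₀p : IsPGroup p ker₀ := isPGroup_ker_block p
    let τ : V₁ →* ker₀ := (θ.comp V₁.subtype).codRestrict ker₀ (fun x => by
      have := x.2
      exact this)
    have hτ : Function.Surjective τ := by
      rintro ⟨t, ht⟩
      obtain ⟨k, hk⟩ := hθ t
      have hkV : k ∈ V₁ := by
        change block (θ k) = 1
        rw [hk]
        exact ht
      exact ⟨⟨k, hkV⟩, Subtype.ext hk⟩
    let R : Sylow p ker₀ := Q₁.mapSurjective hτ
    have hRtop : (R : Subgroup ker₀) = ⊤ := by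
      exact (R.is_maximal' ((IsPGroup.iff_card.mp hker₀p).elim (fun n hn => by
        refine IsPGroup.of_card (n := n) ?_
        rw [Subgroup.card_top]
        exact hn)) le_top).symm
    have hmem : (⟨transl v, transl_mem_ker v⟩ : ker₀) ∈ (R : Subgroup ker₀) := by
      rw [hRtop]
      trivial
    obtain ⟨q, hq, hqe⟩ := hmem
    refine ⟨(q : K₀), ⟨q, hq, rfl⟩, ?_⟩
    exact congrArg Subtype.val hqe
  -- Frattini
  let N₂ : Subgroup K₀ := Subgroup.normalizer (Q₂ : Set K₀)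
  have hfr : ∀ k : K₀, ∃ n ∈ N₂, ∃ v ∈ V₁, n * v = k := by
    intro k
    have h1 : k ∈ N₂ ⊔ V₁ := by
      have := Sylow.normalizer_sup_eq_top Q₁
      have h2 : N₂ ⊔ V₁ = ⊤ := this
      rw [h2]
      trivial
    exact Subgroup.mem_sup_of_normal_right.mp h1
  have hΦN : ∀ A : SL(2, ZMod p), ∃ n ∈ N₂, Φ n = A := by
    intro A
    obtain ⟨k, rfl⟩ := hΦ A
    obtain ⟨n, hn, v, hv, rfl⟩ := hfr k
    refine ⟨n, hn, ?_⟩
    rw [map_mul]
    have : Φ v = 1 := hv
    rw [this, mul_one]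
  let N₁ : Subgroup G := N₂.map K₀.subtype
  let C : Subgroup G := Subgroup.centralizer (Q : Set G)
  have hN₁K : N₁ ≤ K₀ := by
    rintro _ ⟨x, -, rfl⟩
    exact x.2
  have hN₁N : N₁ ≤ Subgroup.normalizer (Q : Set G) := by
    rintro _ ⟨n, hn, rfl⟩
    rw [Subgroup.mem_normalizer_iff]
    intro x
    constructor
    · rintro ⟨y, hy, rfl⟩
      refine ⟨n * y * n⁻¹, (Subgroup.mem_normalizer_iff.mp hn y).mp hy, ?_⟩
      simp
    · rintro ⟨y, hy, hye⟩
      have hx : x = ((n⁻¹ * y * n : K₀) : G) := by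
        have : y = (n : G) * x * (n : G)⁻¹ := hye
        simp [this, mul_assoc]
      rw [hx]
      refine ⟨n⁻¹ * y * n, ?_, rfl⟩
      have hn' : n ∈ Subgroup.normalizer (Q₂ : Set K₀) := hn
      rw [Subgroup.mem_normalizer_iff] at hn'
      have h2 := (hn' (n⁻¹ * y * n)).mpr (by
        have e : n * (n⁻¹ * y * n) * n⁻¹ = y := by group
        rw [e]
        exact hy)
      exact h2
  have hCN : C ≤ Subgroup.normalizer (Q : Set G) := by
    intro c hc
    rw [Subgroup.mem_normalizer_iff]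
    intro x
    have hcx : ∀ x ∈ Q, c * x * c⁻¹ = x := fun x hx => by
      have := Subgroup.mem_centralizer_iff.mp hc x hx
      rw [← this]
      group
    constructor
    · intro hx
      rwa [hcx x hx]
    · intro hx
      have h1 : (c * x * c⁻¹) * c⁻¹ = c⁻¹ * (c * x * c⁻¹) :=
        Subgroup.mem_centralizer_iff.mp (C.inv_mem hc) _ hx
      have e : c⁻¹ * (c * x * c⁻¹) = x * c⁻¹ := by group
      have h2 : c * x * c⁻¹ = x := mul_right_cancel (h1.trans e)
      rwa [h2] at hx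
  have hCnorm : ∀ g ∈ Subgroup.normalizer (Q : Set G), ∀ c ∈ C, g * c * g⁻¹ ∈ C := by
    intro g hg c hc
    rw [Subgroup.mem_centralizer_iff]
    intro x hx
    have h1 : g⁻¹ * x * g ∈ Q := by
      have := (Subgroup.mem_normalizer_iff.mp (Subgroup.inv_mem _ hg) x).mp hx
      simpa using this
    have h2 := Subgroup.mem_centralizer_iff.mp hc _ h1
    have e : x * (g * c * g⁻¹) = g * ((g⁻¹ * x * g) * c) * g⁻¹ := by group
    rw [e, h2]
    group
  let H : Subgroup G := N₁ ⊔ C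
  have hHN : H ≤ Subgroup.normalizer (Q : Set G) := sup_le hN₁N hCN
  let C' : Subgroup H := C.subgroupOf H
  haveI hC'n : C'.Normal := by
    constructor
    intro c hc g
    exact hCnorm _ (hHN g.2) _ hc
  let H₀ : Subgroup H := N₁.subgroupOf H
  have hs : H₀ ⊔ C' = ⊤ := by
    have := Subgroup.subgroupOf_sup (le_sup_left : N₁ ≤ H) (le_sup_right : C ≤ H)
    exact this.symm.trans (Subgroup.subgroupOf_self _)
  let ι : H₀ →* K₀ :=
    { toFun := fun x => ⟨((x : H) : G), hN₁K x.2⟩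
      map_one' := rfl
      map_mul' := fun _ _ => rfl }
  let θ' : H₀ →* SL(2, ZMod p) := Φ.comp ι
  have hθ' : ∀ (x : H) (hx : x ∈ H₀), x ∈ C' → θ' ⟨x, hx⟩ = 1 := by
    intro x hx hxC
    set k : K₀ := ι ⟨x, hx⟩ with hk
    have hkval : (k : G) = (x : G) := rfl
    change block (θ k) = 1
    have hcomm : ∀ v : Fin 2 → ZMod p, ((block (θ k) : SL(2, ZMod p)) : Matrix (Fin 2) (Fin 2) (ZMod p)).mulVec v = v := by
      intro v
      obtain ⟨q, hq, hqe⟩ := hcover v
      have hqQ : (q : G) ∈ Q := ⟨q, hq, rfl⟩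
      have h1 : (q : G) * (x : G) = (x : G) * (q : G) := Subgroup.mem_centralizer_iff.mp hxC _ hqQ
      have h2 : q * k = k * q := Subtype.ext h1
      have h3 : θ q * θ k = θ k * θ q := by rw [← map_mul, ← map_mul, h2]
      have h4 := conj_transl (θ k) v
      rw [← hqe, ← h3, hqe, mul_assoc, mul_inv_cancel, mul_one] at h4
      exact (H14.transl_inj h4).symm
    refine Subtype.ext ?_
    ext i j
    have h5 := congrFun (hcomm (fun l => if l = j then 1 else 0)) i
    simpa [Matrix.mulVec, dotProduct, Finset.sum_ite_eq', Matrix.one_apply] using h5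
  obtain ⟨Θ, hΘ1, hΘ2⟩ := exists_ext_hom H₀ C' hs θ' hθ'
  have hΘs : Function.Surjective Θ := by
    intro A
    obtain ⟨n, hn, hnA⟩ := hΦN A
    have hn₁ : (n : G) ∈ N₁ := ⟨n, hn, rfl⟩
    let x : H := ⟨n, (le_sup_left : N₁ ≤ H) hn₁⟩
    have hx : x ∈ H₀ := hn₁
    refine ⟨x, ?_⟩
    rw [hΘ1 ⟨x, hx⟩]
    change Φ (ι ⟨x, hx⟩) = A
    rw [← hnA]
    rfl
  let K : Subgroup G := Θ.ker.map H.subtype
  have hKsub : K.subgroupOf H = Θ.ker := by
    ext x
    rw [Subgroup.mem_subgroupOf]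
    constructor
    · rintro ⟨y, hy, hye⟩
      have : y = x := Subtype.ext hye
      rw [← this]
      exact hy
    · intro hx
      exact ⟨x, hx, rfl⟩
  refine ⟨Q, hQp, H, K, ?_, ?_, ?_, hHN, ?_⟩
  · rw [hKsub]
    exact MonoidHom.normal_ker Θ
  · intro c hc
    have hcH : c ∈ H := (le_sup_right : C ≤ H) hc
    exact ⟨⟨c, hcH⟩, hΘ2 _ hc, rfl⟩
  · rintro _ ⟨x, -, rfl⟩
    exact x.2
  · haveI : (K.subgroupOf H).Normal := by
      rw [hKsub]
      exact MonoidHom.normal_ker Θ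
    refine ⟨(QuotientGroup.quotientMulEquivOfEq hKsub).trans (QuotientGroup.quotientKerEquivOfSurjective Θ hΘs)⟩

end Cfsg.Agent.H08.CR
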