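import Mathlib
import Cfsg.Agent.Lib.H08.CR.QdFree
import Cfsg.Agent.Lib.H24.ZJFus3
import Cfsg.Agent.Lib.H24.QdLocal4
import Cfsg.Agent.Lib.H24.FusCore
import Cfsg.Agent.Lib.H14.QdStable
import Cfsg.Agent.Lib.H15.Sylow3

/-!
The fusion system of a group without `Qd(p)` sections is constrained; translation of the normal centric
radical subgroup into group language.
-/

set_option autoImplicit false

namespace Cfsg.Agent.H08.CR

open Cfsg Cfsg.FusionSystem
open Cfsg.Agent.H24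

universe u

variable {G : Type u} [Group G] [Finite G] {p : ℕ} [Fact p.Prime]

theorem constrained_of_qdFree (hp : p ≠ 2) (P : Sylow p G)
    (hqd : ¬ Involves ↥(Cfsg.qdOver (ZMod p)) G) :
    (groupFusionSystem (P : Subgroup G)).IsConstrained p := by
  have hW := H14.isCharPFunctor_zjF.{u} p
  refine freeConstrained_all (A := ↥(Cfsg.qdOver (ZMod p))) H14.zjF hW.1 hW.2 ?_ (Nat.card (P : Subgroup G) + 1) G
    (P : Subgroup G) P.isPGroup' _ (groupFusion_saturated P) (sectionFree_of_not_involves P hqd) (Nat.lt_succ_self _)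
  intro L _ _ S hc hL
  have hD : IsStronglyClosed (S : Subgroup L) (S : Subgroup L) := ⟨le_refl _, fun _ _ _ h => h⟩
  have hst := H14.stable_of_not_involves hp hL
  have hc' : Subgroup.centralizer (Cfsg.pCore p L : Set L) ≤ Cfsg.pCore p L := by
    rw [hc]
    exact inf_le_left
  have h1 := H14.zz_normal (H14.abFam L) hp S hD hst hc'
  have h2 : (H14.zjF ↥(S : Subgroup L)).map (S : Subgroup L).subtype = (H14.abFam L).zz (S : Subgroup L) := by
    have h3 := H14.inducedFunctor_zjF (S : Subgroup L)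
    rw [H14.centerThompsonAOf_eq_zz] at h3
    exact h3
  rw [h2]
  exact h1

/-- Normality in the fusion system of a group, in group language. -/
theorem split_of_isNormal {S Q : Subgroup G} (hQ : (groupFusionSystem S).IsNormal Q) {A : Subgroup G}
    (hA : A ≤ S) (g : G) (hg : A.map (MulAut.conj g).toMonoidHom ≤ S) :
    ∃ h ∈ Subgroup.normalizer (Q : Set G), ∃ c ∈ Subgroup.centralizer (A : Set G), g = h * c := by
  have hφ : conjHom A g ∈ (groupFusionSystem S).Hom A :=
    ⟨hA, fun x => hg ⟨x, x.2, rfl⟩, g, fun x => rfl⟩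
  obtain ⟨ψ, ⟨-, -, h, hh⟩, hψ1, hψ2⟩ := hQ.2 A _ hφ
  rw [map_subgroupOf_eq_iff le_sup_right] at hψ2
  have hgn : h ∈ Subgroup.normalizer (Q : Set G) := by
    refine mem_normalizer_of_forall ?_ ?_
    · intro y hy
      have := hψ2.1 y hy
      rwa [hh] at this
    · intro y hy
      obtain ⟨x, hx, e⟩ := hψ2.2 y hy
      rw [hh] at e
      have e1 : h⁻¹ * y * h = x := by
        rw [← e]
        group
      rw [e1]
      exact hx
  refine ⟨h, hgn, h⁻¹ * g, ?_, by group⟩
  rw [Subgroup.mem_centralizer_iff]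
  intro a ha
  have h1 := hψ1 ⟨a, ha⟩
  rw [hh] at h1
  have h2 : h * a * h⁻¹ = g * a * g⁻¹ := h1
  have e : a * (h⁻¹ * g) = h⁻¹ * (h * a * h⁻¹) * g := by group
  rw [e, h2]
  group

/-- The product `Q C(Q)`. -/
theorem exists_mul_of_mem_sup_cent {Q : Subgroup G} {d : G}
    (hd : d ∈ Q ⊔ Subgroup.centralizer (Q : Set G)) :
    ∃ y ∈ Q, ∃ c ∈ Subgroup.centralizer (Q : Set G), d = y * c := by
  have hle : Q ≤ Subgroup.normalizer (Subgroup.centralizer (Q : Set G) : Set G) := by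
    intro q hq
    refine mem_normalizer_of_forall ?_ ?_
    · intro c hc
      rw [(Subgroup.mem_centralizer_iff.mp hc q hq)]
      simpa using hc
    · intro c hc
      have h1 := Subgroup.mem_centralizer_iff.mp hc q hq
      have : q⁻¹ * c * q = c := by
        rw [mul_assoc, ← h1]
        group
      rw [this]
      exact hc
  have h2 : d ∈ ((Q ⊔ Subgroup.centralizer (Q : Set G) : Subgroup G) : Set G) := hd
  rw [Subgroup.coe_mul_of_left_le_normalizer_right _ _ hle] at h2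
  obtain ⟨y, hy, c, hc, rfl⟩ := h2
  exact ⟨y, hy, c, hc, rfl⟩

theorem sup_cent_le_normalizer (Q : Subgroup G) :
    Q ⊔ Subgroup.centralizer (Q : Set G) ≤ Subgroup.normalizer (Q : Set G) := by
  refine sup_le Subgroup.le_normalizer ?_
  intro c hc
  refine mem_normalizer_of_forall ?_ ?_
  · intro q hq
    rw [← (Subgroup.mem_centralizer_iff.mp hc q hq)]
    simpa using hq
  · intro q hq
    have h1 := Subgroup.mem_centralizer_iff.mp hc q hq
    have : c⁻¹ * q * c = q := by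
      rw [mul_assoc, h1]
      group
    rw [this]
    exact hq

theorem conj_cent_mem {Q : Subgroup G} {n c : G} (hn : n ∈ Subgroup.normalizer (Q : Set G))
    (hc : c ∈ Subgroup.centralizer (Q : Set G)) : n * c * n⁻¹ ∈ Subgroup.centralizer (Q : Set G) := by
  rw [Subgroup.mem_centralizer_iff]
  intro x hx
  have h1 : n⁻¹ * x * n ∈ Q := by
    have := (Subgroup.mem_normalizer_iff.mp (Subgroup.inv_mem _ hn) x).mp hx
    simpa using this
  have h2 := Subgroup.mem_centralizer_iff.mp hc _ h1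
  have e : x * (n * c * n⁻¹) = n * ((n⁻¹ * x * n) * c) * n⁻¹ := by group
  rw [e, h2]
  group

theorem conj_sup_cent_mem {Q : Subgroup G} {n d : G} (hn : n ∈ Subgroup.normalizer (Q : Set G))
    (hd : d ∈ Q ⊔ Subgroup.centralizer (Q : Set G)) : n * d * n⁻¹ ∈ Q ⊔ Subgroup.centralizer (Q : Set G) := by
  obtain ⟨y, hy, c, hc, rfl⟩ := exists_mul_of_mem_sup_cent hd
  have e : n * (y * c) * n⁻¹ = (n * y * n⁻¹) * (n * c * n⁻¹) := by group
  rw [e]
  exact Subgroup.mul_mem _ (Subgroup.mem_sup_left ((Subgroup.mem_normalizer_iff.mp hn y).mp hy))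
    (Subgroup.mem_sup_right (conj_cent_mem hn hc))

/-- The relative index in a `Y`-extension is a power of `p`. -/
theorem relIndex_sup_pow {D Y : Subgroup G} (hYp : IsPGroup p Y)
    (hY : Y ≤ Subgroup.normalizer (D : Set G)) : ∃ k : ℕ, D.relIndex (Y ⊔ D) = p ^ k := by
  classical
  haveI hn : (D.subgroupOf (Y ⊔ D)).Normal := by
    refine ⟨fun x hx g => ?_⟩
    rw [Subgroup.mem_subgroupOf] at hx ⊢
    have hg : ((g : ↥(Y ⊔ D)) : G) ∈ Subgroup.normalizer (D : Set G) := by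
      have hDn : D ≤ Subgroup.normalizer (D : Set G) := Subgroup.le_normalizer
      exact (sup_le hY hDn) g.2
    exact (Subgroup.mem_normalizer_iff.mp hg _).mp hx
  let f : Y →* (↥(Y ⊔ D) ⧸ D.subgroupOf (Y ⊔ D)) :=
    (QuotientGroup.mk' (D.subgroupOf (Y ⊔ D))).comp (Subgroup.inclusion le_sup_left)
  have hf : Function.Surjective f := by
    intro z
    obtain ⟨x, rfl⟩ := QuotientGroup.mk'_surjective _ z
    have hx : (x : G) ∈ ((Y ⊔ D : Subgroup G) : Set G) := x.2
    rw [Subgroup.coe_mul_of_left_le_normalizer_right _ _ hY] at hx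
    obtain ⟨y, hy, d, hd, hyd⟩ := hx
    refine ⟨⟨y, hy⟩, ?_⟩
    apply QuotientGroup.eq.mpr
    rw [Subgroup.mem_subgroupOf]
    have : (((Subgroup.inclusion (le_sup_left : Y ≤ Y ⊔ D)) ⟨y, hy⟩ : ↥(Y ⊔ D))⁻¹ * x : ↥(Y ⊔ D)).1 = d := by
      change y⁻¹ * (x : G) = d
      rw [← hyd]
      group
    rw [this]
    exact hd
  have hq : IsPGroup p (↥(Y ⊔ D) ⧸ D.subgroupOf (Y ⊔ D)) := hYp.of_surjective f hf
  obtain ⟨k, hk⟩ := IsPGroup.iff_card.mp hq
  refine ⟨k, ?_⟩
  rw [← hk]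
  rfl

/-- The radical property at the group level. -/
theorem radical_of_fusion {S Q : Subgroup G} (hQS : Q ≤ S) (hQp : IsPGroup p Q)
    (hr : (groupFusionSystem S).IsRadical p Q) (X : Subgroup G)
    (hXN : X ≤ Subgroup.normalizer (Q : Set G))
    (hXn : ∀ n ∈ Subgroup.normalizer (Q : Set G), X.map (MulAut.conj n).toMonoidHom = X)
    (hQX : Q ⊔ Subgroup.centralizer (Q : Set G) ≤ X)
    (hk : ∃ k : ℕ, (Q ⊔ Subgroup.centralizer (Q : Set G)).relIndex X = p ^ k) :
    X = Q ⊔ Subgroup.centralizer (Q : Set G) := by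
  classical
  refine le_antisymm (fun x hx => ?_) hQX
  set D := Q ⊔ Subgroup.centralizer (Q : Set G) with hD
  let F := groupFusionSystem S
  have hA : ∀ {g : G} (hg : g ∈ Subgroup.normalizer (Q : Set G)), autOfNormalizer Q hg ∈ F.autGroup Q := by
    intro g hg
    have : F.autGroup Q = autInducedBy ⊤ Q := autGroup_groupFusion hQS
    rw [this]
    exact autOfNormalizer_mem hg trivial
  -- the normal `p`-subgroup
  let M : Subgroup (F.autGroup Q) :=
    { carrier := {α | ∃ x ∈ X, ∃ hx : x ∈ Subgroup.normalizer (Q : Set G), (α : MulAut Q) = autOfNormalizer Q hx}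
      one_mem' := ⟨1, X.one_mem, Subgroup.one_mem _, by
        ext y
        simp⟩
      mul_mem' := by
        rintro a b ⟨x, hx, hxn, hax⟩ ⟨y, hy, hyn, hby⟩
        refine ⟨x * y, X.mul_mem hx hy, Subgroup.mul_mem _ hxn hyn, ?_⟩
        ext z
        have h1 : (((a * b : F.autGroup Q) : MulAut Q) z : Q) = (a : MulAut Q) ((b : MulAut Q) z) := rfl
        rw [h1, hax, hby]
        simp [mul_assoc]
      inv_mem' := by
        rintro a ⟨x, hx, hxn, hax⟩
        refine ⟨x⁻¹, X.inv_mem hx, Subgroup.inv_mem _ hxn, ?_⟩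
        have h1 : (autOfNormalizer Q hxn) * (autOfNormalizer Q (Subgroup.inv_mem _ hxn)) = 1 := by
          ext z
          change x * (x⁻¹ * (z : G) * x⁻¹⁻¹) * x⁻¹ = z
          group
        have h2 : ((a⁻¹ : F.autGroup Q) : MulAut Q) = (a : MulAut Q)⁻¹ := rfl
        rw [h2, hax]
        exact inv_eq_of_mul_eq_one_right h1 }
  have hMn : M.Normal := by
    refine ⟨fun α hα β => ?_⟩
    obtain ⟨x, hxX, hxn, hαx⟩ := hα
    have hβ : (β : MulAut Q) ∈ autInducedBy ⊤ Q := by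
      have : F.autGroup Q = autInducedBy ⊤ Q := autGroup_groupFusion hQS
      rw [← this]
      exact β.2
    obtain ⟨g, -, hg⟩ := (mem_autInducedBy_iff ⊤ Q _).1 hβ
    have hgn : g ∈ Subgroup.normalizer (Q : Set G) := mem_normalizer_of_aut _ hg
    have hconj : g * x * g⁻¹ ∈ X := by
      rw [← hXn g hgn]
      exact ⟨x, hxX, rfl⟩
    refine ⟨g * x * g⁻¹, hconj, Subgroup.mul_mem _ (Subgroup.mul_mem _ hgn hxn) (Subgroup.inv_mem _ hgn), ?_⟩
    ext z
    have h1 : (((β * α * β⁻¹ : F.autGroup Q) : MulAut Q) z : Q) =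
        (β : MulAut Q) ((α : MulAut Q) ((β : MulAut Q)⁻¹ z)) := rfl
    rw [h1, hg, hαx]
    have h2 : (((β : MulAut Q)⁻¹ z : Q) : G) = g⁻¹ * (z : G) * g := by
      have h3 := hg ((β : MulAut Q)⁻¹ z)
      rw [MulAut.apply_inv_self] at h3
      rw [show (z : G) = g * (((β : MulAut Q)⁻¹ z : Q) : G) * g⁻¹ from h3]
      group
    simp only [autOfNormalizer_apply]
    rw [h2]
    group
  have hMp : IsPGroup p M := by
    rintro ⟨α, x, hxX, hxn, hαx⟩
    obtain ⟨k, hk⟩ := hk
    -- a `p`-power of `x` lies in `D`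
    haveI hDn : (D.subgroupOf X).Normal := by
      refine ⟨fun y hy g => ?_⟩
      rw [Subgroup.mem_subgroupOf] at hy ⊢
      exact conj_sup_cent_mem (hXN g.2) hy
    have hpow : x ^ (p ^ k) ∈ D := by
      have h1 := Subgroup.pow_index_mem (D.subgroupOf X) (⟨x, hxX⟩ : X)
      have h2 : (D.subgroupOf X).index = p ^ k := hk
      rw [h2, Subgroup.mem_subgroupOf] at h1
      exact h1
    obtain ⟨y, hy, c, hc, hyc⟩ := exists_mul_of_mem_sup_cent hpow
    obtain ⟨m, hm⟩ := hQp ⟨y, hy⟩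
    have hym : y ^ (p ^ m) = 1 := by
      have := congrArg Subtype.val hm
      simpa using this
    let ρ := Q.normalizerMonoidHom
    have hyn : y ∈ Subgroup.normalizer (Q : Set G) := Subgroup.le_normalizer hy
    have h1 : (α : MulAut Q) = ρ ⟨x, hxn⟩ := hαx
    have h2 : ρ ⟨x, hxn⟩ ^ (p ^ k) = ρ ⟨y, hyn⟩ := by
      rw [← map_pow]
      ext z
      change x ^ (p ^ k) * (z : G) * (x ^ (p ^ k))⁻¹ = y * (z : G) * y⁻¹
      rw [hyc]
      have h3 : c * (z : G) * c⁻¹ = z := by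
        have := Subgroup.mem_centralizer_iff.mp hc z z.2
        rw [← this]
        group
      have e : y * c * (z : G) * (y * c)⁻¹ = y * (c * (z : G) * c⁻¹) * y⁻¹ := by group
      rw [e, h3]
    have h3 : ρ ⟨y, hyn⟩ ^ (p ^ m) = 1 := by
      rw [← map_pow]
      have : (⟨y, hyn⟩ : Subgroup.normalizer (Q : Set G)) ^ (p ^ m) = 1 := Subtype.ext hym
      rw [this, map_one]
    refine ⟨k + m, ?_⟩
    apply Subtype.ext
    apply Subtype.ext
    change (α : MulAut Q) ^ (p ^ (k + m)) = 1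
    rw [h1, pow_add, pow_mul, h2, h3]
  have hle := Cfsg.Agent.H01.le_pCore hMn hMp
  have hxn : x ∈ Subgroup.normalizer (Q : Set G) := hXN hx
  have hmem : (⟨autOfNormalizer Q hxn, hA hxn⟩ : F.autGroup Q) ∈ M := ⟨x, hx, hxn, rfl⟩
  have hinn : autOfNormalizer Q hxn ∈ Inn Q := by
    rw [← hr.2]
    exact ⟨_, hle hmem, rfl⟩
  obtain ⟨y, hy⟩ := hinn
  have h2 : (y : G)⁻¹ * x ∈ Subgroup.centralizer (Q : Set G) := by
    refine Subgroup.mem_centralizer_iff.2 fun q hq => ?_
    have h3 := congrArg (fun φ : MulAut Q => ((φ ⟨q, hq⟩ : Q) : G)) hy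
    have h4 : (y : G) * q * (y : G)⁻¹ = x * q * x⁻¹ := h3
    have e : q * ((y : G)⁻¹ * x) = (y : G)⁻¹ * ((y : G) * q * (y : G)⁻¹) * x := by group
    rw [e, h4]
    group
  have e : x = (y : G) * ((y : G)⁻¹ * x) := by group
  rw [e]
  exact Subgroup.mul_mem _ (Subgroup.mem_sup_left y.2) (Subgroup.mem_sup_right h2)

/-- An element of `C(R)` of `p`-power order lies in `R`, when `Z(R)` is Sylow in `C(R)`. -/
theorem mem_of_centric {R : Subgroup G}
    (hsyl : ∃ T : Sylow p ↥(Subgroup.centralizer (R : Set G)),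
      (T : Subgroup ↥(Subgroup.centralizer (R : Set G))).map (Subgroup.centralizer (R : Set G)).subtype =
        R ⊓ Subgroup.centralizer (R : Set G))
    {c : G} (hc : c ∈ Subgroup.centralizer (R : Set G)) {n : ℕ} (hn : c ^ p ^ n = 1) : c ∈ R := by
  classical
  set C := Subgroup.centralizer (R : Set G) with hC
  obtain ⟨T, hT⟩ := hsyl
  let c' : C := ⟨c, hc⟩
  have hc'1 : c' ^ p ^ n = 1 := Subtype.ext hn
  have hc'p : IsPGroup p (Subgroup.zpowers c') := by
    rintro ⟨x, i, rfl⟩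
    refine ⟨n, Subtype.ext ?_⟩
    change ((c' ^ i) ^ p ^ n : C) = 1
    rw [← zpow_natCast, ← zpow_mul, mul_comm, zpow_mul, zpow_natCast, hc'1, one_zpow]
  obtain ⟨g, hg⟩ := exists_conj_le_sylow T hc'p
  have h1 : g * c' * g⁻¹ ∈ (T : Subgroup C) := hg ⟨c', Subgroup.mem_zpowers c', rfl⟩
  have h2 : ((g * c' * g⁻¹ : C) : G) ∈ R ⊓ C := by
    rw [← hT]
    exact ⟨g * c' * g⁻¹, h1, rfl⟩
  have h3 : ((g * c' * g⁻¹ : C) : G) ∈ R := h2.1
  have h4 : ((g : C) : G)⁻¹ * ((g * c' * g⁻¹ : C) : G) * ((g : C) : G) = c := by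
    have hcv : (c' : G) = c := rfl
    push_cast
    rw [hcv]
    group
  have h5 := Subgroup.mem_centralizer_iff.mp g.2 _ h3
  have h6 : ((g : C) : G)⁻¹ * ((g * c' * g⁻¹ : C) : G) * ((g : C) : G) = ((g * c' * g⁻¹ : C) : G) := by
    rw [mul_assoc, h5]
    group
  rw [← h4, h6]
  exact h3

/-- Every centric radical subgroup contains the normal subgroup `Q₀`. -/
theorem le_of_centric_radical {P Q₀ R : Subgroup G} (hPp : IsPGroup p P) (hQ₀P : Q₀ ≤ P)
    (hPN : P ≤ Subgroup.normalizer (Q₀ : Set G)) (hRP : R ≤ P)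
    (hkey : ∀ g : G, R.map (MulAut.conj g).toMonoidHom ≤ P →
      ∃ h ∈ Subgroup.normalizer (Q₀ : Set G), ∃ c ∈ Subgroup.centralizer (R : Set G), g = h * c)
    (hsyl : ∃ T : Sylow p ↥(Subgroup.centralizer (R : Set G)),
      (T : Subgroup ↥(Subgroup.centralizer (R : Set G))).map (Subgroup.centralizer (R : Set G)).subtype =
        R ⊓ Subgroup.centralizer (R : Set G))
    (hrad : ∀ X : Subgroup G, X ≤ Subgroup.normalizer (R : Set G) →
      (∀ n ∈ Subgroup.normalizer (R : Set G), X.map (MulAut.conj n).toMonoidHom = X) →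
      R ⊔ Subgroup.centralizer (R : Set G) ≤ X →
      (∃ k : ℕ, (R ⊔ Subgroup.centralizer (R : Set G)).relIndex X = p ^ k) →
      X = R ⊔ Subgroup.centralizer (R : Set G)) : Q₀ ≤ R := by
  classical
  set C := Subgroup.centralizer (R : Set G) with hC
  set D := R ⊔ C with hD
  set Nm := Subgroup.normalizer (R : Set G) with hNm
  have hDN : D ≤ Nm := sup_cent_le_normalizer R
  let Y : Subgroup G := Q₀ ⊓ Nm
  have hYp : IsPGroup p Y := hPp.to_le (inf_le_left.trans hQ₀P)
  have hYD : Y ≤ Subgroup.normalizer (D : Set G) := by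
    intro y hy
    refine mem_normalizer_of_forall (fun d hd => conj_sup_cent_mem hy.2 hd) (fun d hd => ?_)
    have := conj_sup_cent_mem (Subgroup.inv_mem _ hy.2) hd
    simpa using this
  have hstep : ∀ n ∈ Nm, ∀ x ∈ Y ⊔ D, n * x * n⁻¹ ∈ Y ⊔ D := by
    intro n hn x hx
    have hle : Y ⊔ D ≤ (Y ⊔ D).comap (MulAut.conj n).toMonoidHom := by
      refine sup_le (fun y hy => ?_) (fun d hd => ?_)
      · have hRn : R.map (MulAut.conj n).toMonoidHom ≤ P := by
          rintro _ ⟨r, hr, rfl⟩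
          exact hRP ((Subgroup.mem_normalizer_iff.mp hn r).mp hr)
        obtain ⟨h, hh, c, hc, rfl⟩ := hkey n hRn
        have hcN : c ∈ Nm := hDN (Subgroup.mem_sup_right hc)
        have hhN : h ∈ Nm := by
          have e : h = h * c * c⁻¹ := by group
          rw [e]
          exact Subgroup.mul_mem _ hn (Subgroup.inv_mem _ hcN)
        have e : (MulAut.conj (h * c)).toMonoidHom y =
            (h * (c * (y * c⁻¹ * y⁻¹)) * h⁻¹) * (h * y * h⁻¹) := by
          change (h * c) * y * (h * c)⁻¹ = _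
          group
        change (MulAut.conj (h * c)).toMonoidHom y ∈ Y ⊔ D
        rw [e]
        refine Subgroup.mul_mem _ (Subgroup.mem_sup_right ?_) (Subgroup.mem_sup_left ?_)
        · refine conj_sup_cent_mem hhN (Subgroup.mul_mem _ (Subgroup.mem_sup_right hc) (Subgroup.mem_sup_right ?_))
          exact conj_cent_mem hy.2 (Subgroup.inv_mem _ hc)
        · refine ⟨(Subgroup.mem_normalizer_iff.mp hh y).mp hy.1, ?_⟩
          exact Subgroup.mul_mem _ (Subgroup.mul_mem _ hhN hy.2) (Subgroup.inv_mem _ hhN)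
      · exact Subgroup.mem_sup_right (conj_sup_cent_mem hn hd)
    exact hle hx
  have hXeq : Y ⊔ D = D := by
    refine hrad (Y ⊔ D) (sup_le inf_le_right hDN) (fun n hn => ?_) le_sup_right (relIndex_sup_pow hYp hYD)
    refine le_antisymm ?_ ?_
    · rintro _ ⟨x, hx, rfl⟩
      exact hstep n hn x hx
    · intro x hx
      refine ⟨n⁻¹ * x * n⁻¹⁻¹, hstep n⁻¹ (Subgroup.inv_mem _ hn) x hx, ?_⟩
      change n * (n⁻¹ * x * n⁻¹⁻¹) * n⁻¹ = x
      group
  have hYR : Y ≤ R := by
    intro q hq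
    have hqD : q ∈ D := by
      rw [← hXeq]
      exact Subgroup.mem_sup_left hq
    obtain ⟨r, hr, c, hc, rfl⟩ := exists_mul_of_mem_sup_cent hqD
    have hcP : c ∈ P := by
      have e : c = r⁻¹ * (r * c) := by group
      rw [e]
      exact P.mul_mem (P.inv_mem (hRP hr)) (hQ₀P hq.1)
    obtain ⟨n, hn⟩ := hPp ⟨c, hcP⟩
    have hn' : c ^ p ^ n = 1 := by
      have := congrArg Subtype.val hn
      simpa using this
    exact R.mul_mem hr (mem_of_centric hsyl hc hn')
  -- growth of normalizers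
  by_contra hcon
  let W : Subgroup G := Q₀ ⊔ R
  have hWP : W ≤ P := sup_le hQ₀P hRP
  have hWp : IsPGroup p W := hPp.to_le hWP
  haveI : Finite W := inferInstance
  haveI : Group.IsNilpotent W := hWp.isNilpotent
  have hlt : R.subgroupOf W < ⊤ := by
    rw [lt_top_iff_ne_top]
    intro h
    apply hcon
    intro q hq
    have h1 : (⟨q, Subgroup.mem_sup_left hq⟩ : W) ∈ R.subgroupOf W := by
      rw [h]
      trivial
    exact h1
  have hcond := (normalizerCondition_of_isNilpotent (G := W)) _ hlt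
  obtain ⟨w, hw, hwR⟩ := SetLike.exists_of_lt hcond
  have hwW : (w : G) ∈ ((Q₀ ⊔ R : Subgroup G) : Set G) := w.2
  rw [Subgroup.coe_mul_of_right_le_normalizer_left _ _ (hRP.trans hPN)] at hwW
  obtain ⟨q, hq, r, hr, hqr⟩ := hwW
  have hwN : (w : G) ∈ Nm := by
    refine mem_normalizer_of_forall (fun y hy => ?_) (fun y hy => ?_)
    · have h1 := (Subgroup.mem_normalizer_iff.mp hw ⟨y, Subgroup.mem_sup_right hy⟩).mp hy
      exact h1
    · have h1 := (Subgroup.mem_normalizer_iff.mp (Subgroup.inv_mem _ hw) ⟨y, Subgroup.mem_sup_right hy⟩).mp hy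
      have h2 : ((w⁻¹ * ⟨y, Subgroup.mem_sup_right hy⟩ * w⁻¹⁻¹ : W) : G) ∈ R := h1
      simpa using h2
  have hqN : q ∈ Nm := by
    have e : q = (w : G) * r⁻¹ := by
      rw [← hqr]
      group
    rw [e]
    exact Subgroup.mul_mem _ hwN (Subgroup.inv_mem _ (Subgroup.le_normalizer hr))
  have hqR : q ∈ R := hYR ⟨hq, hqN⟩
  apply hwR
  change (w : G) ∈ R
  rw [← hqr]
  exact R.mul_mem hqR hr

/-- The Sylow subgroup of `C(Q₀)` for a normal centric subgroup. -/
theorem exists_sylow_cent {P Q₀ : Subgroup G} (P' : Sylow p G) (hP' : (P' : Subgroup G) = P)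
    (hPN : P ≤ Subgroup.normalizer (Q₀ : Set G)) (hQ₀p : IsPGroup p Q₀)
    (hcent : P ⊓ Subgroup.centralizer (Q₀ : Set G) ≤ Q₀) :
    ∃ T : Sylow p ↥(Subgroup.centralizer (Q₀ : Set G)),
      (T : Subgroup ↥(Subgroup.centralizer (Q₀ : Set G))).map (Subgroup.centralizer (Q₀ : Set G)).subtype =
        Q₀ ⊓ Subgroup.centralizer (Q₀ : Set G) := by
  classical
  set C := Subgroup.centralizer (Q₀ : Set G) with hC
  have hT : IsPGroup p ((Q₀ ⊓ C).subgroupOf C) :=
    (hQ₀p.to_le inf_le_left).comap_of_injective C.subtype (Subgroup.subtype_injective _) |>.to_le le_rfl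
  obtain ⟨R, hR⟩ := hT.exists_le_sylow
  refine ⟨R, le_antisymm ?_ ?_⟩
  · rintro _ ⟨r, hr, rfl⟩
    have hR1 : IsPGroup p ((R : Subgroup C).map C.subtype) := R.isPGroup'.map _
    have hle : (R : Subgroup C).map C.subtype ≤ Subgroup.normalizer (Q₀ : Set G) := by
      rintro _ ⟨x, -, rfl⟩
      exact (le_sup_right : C ≤ Q₀ ⊔ C).trans (sup_cent_le_normalizer Q₀) x.2
    obtain ⟨c, hc, hcd⟩ := H15.exists_conj_le_sylow_of_le _ _ P' (hP'.le.trans hPN) hle hR1
    have h1 : c * (r : G) * c⁻¹ ∈ P := by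
      rw [← hP']
      exact hcd _ ⟨r, hr, rfl⟩
    have h2 : c * (r : G) * c⁻¹ ∈ C := conj_cent_mem hc r.2
    have h3 : c * (r : G) * c⁻¹ ∈ Q₀ := hcent ⟨h1, h2⟩
    have h4 : (r : G) ∈ Q₀ := (Subgroup.mem_normalizer_iff.mp hc _).mpr h3
    exact ⟨h4, r.2⟩
  · intro x hx
    refine ⟨⟨x, hx.2⟩, hR ?_, rfl⟩
    exact Subgroup.mem_subgroupOf.2 hx

end Cfsg.Agent.H08.CR
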